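import Cfsg.Agent.H35.ExcIdx
import Cfsg.Agent.H439.CC.Defs

/-!
# `E₈ (q)`: `8` in the principal `11`-block for `q` of order `5` (helper596): the interface

The adjoint module of `chevE8.group K` (index `chevE8.Idx`), `R = {roots with coefficients 3, 2, 1, 0 at the nodes
4, 5, 6, 7}` (five roots), `SA` the subgroup generated by the root groups of the nodes `0, 1, 2, 3` (type `A₄`).
-/

set_option autoImplicit false
set_option linter.unusedSectionVars false

namespace Cfsg.Agent.H596.L8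

open Cfsg CoxeterSystem Cfsg.Agent.ChevalleyStructure.CoxeterGeom Cfsg.Agent.Tits.Roots Cfsg.Agent.Tits.Core
  Cfsg.Agent.Tits.RootComb Cfsg.Agent.Nodes.Reps Cfsg.Agent.Nodes.BNOf
  Cfsg.Agent.Nodes.StabComb Cfsg.Agent.Nodes.Bruhat Cfsg.Agent.Nodes.LeviDec Cfsg.Agent.H35.Poin
  Cfsg.Agent.H35.PoinNum Cfsg.Agent.H35.ExcIdx
  Cfsg.Agent.ChevalleyStructure.CoxeterGeomTypes Cfsg.Lie
open Cfsg.Agent.Nodes.RGDChev Cfsg.Agent.ChevalleyStructure.NPerm

universe u

/-- the degree of a coordinate of the adjoint module: `0` for the Cartan part -/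
def dg : chevE8.Idx → Fin 8 → ℤ
  | Sum.inl _ => 0
  | Sum.inr r => vec chevE8 8 r

/-- the coordinates of `R` (`s = 1`) and `-R` (`s = -1`) -/
def InR (s : ℤ) (i : chevE8.Idx) : Prop := dg i 4 = 3 * s ∧ dg i 5 = 2 * s ∧ dg i 6 = s ∧ dg i 7 = 0

instance (s : ℤ) : DecidablePred (InR s) := fun _ => inferInstanceAs (Decidable (_ ∧ _))

variable (K : Type u) [Field K]

/-- the parabolic subgroup of `E₈ (q)` -/
abbrev P8 (J : Set (Fin 8)) : Subgroup (chevE8.group K) :=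
  PJ CoxeterMatrix.E₈.toCoxeterSystem hpE8.isCartan (TT chevE8 K) (XX chevE8 8 K) J

/-- the subgroup of type `A₄` of the nodes `0, 1, 2, 3` -/
def SA : Subgroup (chevE8.group K) :=
  ⨆ j : {j : Fin 8 // (j : ℕ) < 4}, XX chevE8 8 K (sr j.1) ⊔ XX chevE8 8 K (-sr j.1)

variable {K}

/-- the matrix of an element -/
def mt (g : chevE8.group K) : Matrix chevE8.Idx chevE8.Idx K := ((g : GL chevE8.Idx K) : Matrix chevE8.Idx chevE8.Idx K)

/-- the block of `± R` -/
def blk (s : ℤ) (g : chevE8.group K) : Matrix {i // InR s i} {i // InR s i} K :=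
  (mt g).submatrix Subtype.val Subtype.val

/-- the elements of the normalizer of the torus -/
def nE (i : Fin 8) : chevE8.group K := ⟨nn hpE8 K i, nn_mem_group hpE8 i⟩

/-! The statements of the boxes (as definitions). -/

/-- **K1a** the degree -/
def K1a (K : Type u) [Field K] : Prop := ∀ (J : Set (Fin 8)) (k : Fin 8), k ∉ J → ∀ g ∈ P8 K J,
  ∀ i j : chevE8.Idx, mt g i j ≠ 0 → dg j k ≤ dg i k

/-- **K1b** monomial elements: an element over `w` (`Rp`) permutes the degrees -/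
def K1b (K : Type u) [Field K] : Prop := ∀ (ns : NSys CoxeterMatrix.E₈ (TT chevE8 K) (nE (K := K)))
  (w : CoxeterMatrix.E₈.Group) (g : chevE8.group K), Rp CoxeterMatrix.E₈.toCoxeterSystem ns w g →
  ∀ i j : chevE8.Idx, mt g i j ≠ 0 → dg i = rep CoxeterMatrix.E₈.toCoxeterSystem hpE8.isCartan w (dg j)

/-- **K2** a matrix of order `11` -/
def K2 (K : Type u) [Field K] [Fintype K] : Prop := orderOf ((Fintype.card K : ℕ) : ZMod 11) = 5 →
  ∀ {ι : Type} [Fintype ι] [DecidableEq ι] (D E : Matrix ι ι K), Fintype.card ι = 5 → D ^ 11 = 1 → D ≠ 1 → D * E = 1 →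
    Irreducible D.charpoly ∧ E.charpoly ≠ D.charpoly

/-- **K3** the element -/
def K3 (K : Type u) [Field K] [Fintype K] : Prop := orderOf ((Fintype.card K : ℕ) : ZMod 11) = 5 →
  ∃ x ∈ SA K, (∃ k, orderOf x = 11 ^ k) ∧ Irreducible (blk 1 x).charpoly ∧
    (blk (-1) x).charpoly ≠ (blk 1 x).charpoly

/-- **K4** roots -/
def K4 : Prop := ∀ w ∈ WJ CoxeterMatrix.E₈.toCoxeterSystem {i : Fin 8 | i ≠ 7},
  (∀ k : Fin 8, k ∈ ({4, 5, 6} : Set (Fin 8)) → ∀ i j : chevE8.Idx, InR 1 i → InR 1 j →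
    rep CoxeterMatrix.E₈.toCoxeterSystem hpE8.isCartan w⁻¹ (dg i) k =
      rep CoxeterMatrix.E₈.toCoxeterSystem hpE8.isCartan w⁻¹ (dg j) k) →
  w ∈ WJ CoxeterMatrix.E₈.toCoxeterSystem {i : Fin 8 | i ≠ 4} ∨
    ∀ i j : chevE8.Idx, InR 1 i → dg j = rep CoxeterMatrix.E₈.toCoxeterSystem hpE8.isCartan w⁻¹ (dg i) → InR (-1) j

end Cfsg.Agent.H596.L8
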