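import Mathlib

/-!
# Linear algebra for the blocks (helper596, S4879)

* `const_of_irr` : a matrix with an irreducible characteristic polynomial has no coordinate filtration;
* `charpoly_rect` : `N N' = 1`, same size: `N X N'` and `X` have the same characteristic polynomial.
-/

set_option autoImplicit false

namespace Cfsg.Agent.H596.L8

open Matrix Polynomial

theorem const_of_irr {ι : Type*} [Fintype ι] [DecidableEq ι] {K : Type*} [Field K] {D : Matrix ι ι K}
    (hD : Irreducible D.charpoly) {φ : ι → ℤ} (h : ∀ i j, D i j ≠ 0 → φ j ≤ φ i) (i j : ι) : φ i = φ j := by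
  classical
  have key : ∀ i j, ¬ φ i < φ j := by
    intro i j hij
    let p : ι → Prop := fun k => φ j ≤ φ k
    have hdet : D.charpoly = (D.toSquareBlockProp p).charpoly * (D.toSquareBlockProp fun i => ¬ p i).charpoly := by
      have h1 := Matrix.twoBlockTriangular_det (Matrix.charmatrix D) p fun a ha b hb => by
        have hab : a ≠ b := fun e => ha (e ▸ hb)
        rw [Matrix.charmatrix_apply_ne _ _ _ hab]
        by_contra hne
        have h2 : D a b ≠ 0 := fun e => hne (by rw [e, map_zero, neg_zero])
        exact ha (le_trans hb (h a b h2))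
      have h3 : ∀ (q : ι → Prop) [DecidablePred q], toSquareBlockProp (Matrix.charmatrix D) q =
          Matrix.charmatrix (D.toSquareBlockProp q) := by
        intro q _
        ext1 a b
        by_cases hab : a = b
        · subst hab
          rw [Matrix.charmatrix_apply_eq]
          show Matrix.charmatrix D a a = _
          rw [Matrix.charmatrix_apply_eq]
          rfl
        · rw [Matrix.charmatrix_apply_ne _ _ _ hab]
          show Matrix.charmatrix D a b = _
          rw [Matrix.charmatrix_apply_ne _ _ _ fun e => hab (Subtype.ext e)]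
          rfl
      rw [h3, h3] at h1
      exact h1
    rw [hdet] at hD
    rcases (hD.isUnit_or_isUnit rfl : _ ∨ _) with hu | hu
    · have h4 := Polynomial.natDegree_eq_zero_of_isUnit hu
      rw [Matrix.charpoly_natDegree_eq_dim, Fintype.card_eq_zero_iff] at h4
      exact h4.elim ⟨j, le_refl (φ j)⟩
    · have h4 := Polynomial.natDegree_eq_zero_of_isUnit hu
      rw [Matrix.charpoly_natDegree_eq_dim, Fintype.card_eq_zero_iff] at h4
      exact h4.elim ⟨i, not_le.2 hij⟩
  exact le_antisymm (not_lt.1 (key j i)) (not_lt.1 (key i j))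

theorem charpoly_rect {ι κ : Type*} [Fintype ι] [DecidableEq ι] [Fintype κ] [DecidableEq κ] {K : Type*} [Field K]
    (hc : Fintype.card ι = Fintype.card κ) {N : Matrix ι κ K} {N' : Matrix κ ι K} (h : N * N' = 1)
    (X : Matrix κ κ K) : (N * X * N').charpoly = X.charpoly := by
  have h1 := Matrix.charpoly_mul_comm' (N * X) N'
  rw [hc] at h1
  have h2 : N' * N = 1 := (Matrix.mul_eq_one_comm_of_card_eq ι κ _ hc).1 h
  rw [← Matrix.mul_assoc, h2, Matrix.one_mul] at h1
  exact mul_left_cancel₀ (pow_ne_zero _ Polynomial.X_ne_zero) h1

end Cfsg.Agent.H596.L8
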