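import Cfsg.Agent.H596.L8.Defs
import Cfsg.Agent.H596.L8.LA

/-!
# `E₈ (q)`: the key lemma `C (x) ∩ P₇ ≤ P₄` (helper596, S4879)
-/

set_option autoImplicit false
set_option linter.unusedSectionVars false

namespace Cfsg.Agent.H596.L8

open Cfsg CoxeterSystem Cfsg.Agent.ChevalleyStructure.CoxeterGeom Cfsg.Agent.Tits.Roots Cfsg.Agent.Tits.Core
  Cfsg.Agent.Tits.RootComb Cfsg.Agent.Nodes.Reps Cfsg.Agent.Nodes.BNOf
  Cfsg.Agent.Nodes.StabComb Cfsg.Agent.Nodes.Bruhat Cfsg.Agent.Nodes.LeviDec Cfsg.Agent.H35.Poin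
  Cfsg.Agent.H35.PoinNum Cfsg.Agent.H35.ExcIdx
  Cfsg.Agent.ChevalleyStructure.CoxeterGeomTypes Cfsg.Lie
open Cfsg.Agent.Nodes.RGDChev Cfsg.Agent.ChevalleyStructure.NPerm
open Matrix

universe u

variable {K : Type u} [Field K]

theorem mt_mul (g k : chevE8.group K) : mt (g * k) = mt g * mt k := rfl

theorem mt_one : mt (1 : chevE8.group K) = 1 := rfl

/-- the nodes of the first `A₄` -/
def J4 : Set (Fin 8) := {i | (i : ℕ) < 4}

theorem inR_of_le {s : ℤ} {i k j : chevE8.Idx} (hi : InR s i) (hj : InR s j)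
    (h1 : ∀ m : Fin 8, m ∉ J4 → dg k m ≤ dg i m) (h2 : ∀ m : Fin 8, m ∉ J4 → dg j m ≤ dg k m) : InR s k := by
  obtain ⟨a4, a5, a6, a7⟩ := hi
  obtain ⟨b4, b5, b6, b7⟩ := hj
  have h4 : (4 : Fin 8) ∉ J4 := by simp [J4]
  have h5 : (5 : Fin 8) ∉ J4 := by simp [J4]
  have h6 : (6 : Fin 8) ∉ J4 := by simp [J4]
  have h7 : (7 : Fin 8) ∉ J4 := by simp [J4]
  exact ⟨le_antisymm (a4 ▸ h1 4 h4) (b4 ▸ h2 4 h4), le_antisymm (a5 ▸ h1 5 h5) (b5 ▸ h2 5 h5),
    le_antisymm (a6 ▸ h1 6 h6) (b6 ▸ h2 6 h6), le_antisymm (a7 ▸ h1 7 h7) (b7 ▸ h2 7 h7)⟩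

theorem sum_inR (s : ℤ) (f : chevE8.Idx → K) (h : ∀ k, f k ≠ 0 → InR s k) :
    ∑ k, f k = ∑ k : {k // InR s k}, f k.1 := by
  rw [← Fintype.sum_subtype_add_sum_subtype (fun k => InR s k) f]
  rw [add_eq_left]
  refine Finset.sum_eq_zero fun k _ => ?_
  by_contra hk
  exact k.2 (h k.1 hk)

/-- the blocks are multiplicative on the parabolic subgroup -/
theorem blk_mul (k1a : K1a K) (s : ℤ) {y z : chevE8.group K} (hy : y ∈ P8 K J4) (hz : z ∈ P8 K J4) :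
    blk s (y * z) = blk s y * blk s z := by
  ext i j
  show (mt y * mt z) i.1 j.1 = ∑ k, blk s y i k * blk s z k j
  rw [Matrix.mul_apply, sum_inR s]
  · rfl
  · intro k hk
    exact inR_of_le i.2 j.2 (fun m hm => k1a J4 m hm y hy _ _ (left_ne_zero_of_mul hk))
      (fun m hm => k1a J4 m hm z hz _ _ (right_ne_zero_of_mul hk))

theorem blk_one (s : ℤ) : blk s (1 : chevE8.group K) = 1 := by
  ext i j
  show (1 : Matrix chevE8.Idx chevE8.Idx K) i.1 j.1 = _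
  rw [Matrix.one_apply, Matrix.one_apply]
  exact if_congr Subtype.ext_iff.symm rfl rfl

/-- conjugate in the parabolic subgroup, same characteristic polynomials -/
theorem charpoly_blk (k1a : K1a K) (s : ℤ) {a y : chevE8.group K} (ha : a ∈ P8 K J4) (hy : y ∈ P8 K J4) :
    (blk s (a⁻¹ * y * a)).charpoly = (blk s y).charpoly := by
  rw [blk_mul k1a s (mul_mem (inv_mem ha) hy) ha, blk_mul k1a s (inv_mem ha) hy]
  refine charpoly_rect rfl ?_ _
  rw [← blk_mul k1a s (inv_mem ha) ha, inv_mul_cancel, blk_one]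

theorem card_R : Fintype.card {i : chevE8.Idx // InR 1 i} = Fintype.card {i : chevE8.Idx // InR (-1) i} := by
  decide +kernel

section Main

theorem sr_mem {j : Fin 8} (hj : (j : ℕ) < 4) : sr j ∈ RootsJ CoxeterMatrix.E₈.toCoxeterSystem hpE8.isCartan J4 := by
  refine ⟨isRoot_sr _ _ j, fun k hk => ?_⟩
  have hkj : k ≠ j := fun e => hk (by rw [e]; exact hj)
  simp [sr, hkj]

theorem SA_le : SA K ≤ LJ CoxeterMatrix.E₈.toCoxeterSystem hpE8.isCartan (TT chevE8 K) (XX chevE8 8 K) J4 := by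
  refine iSup_le fun j => sup_le (X_le_LJ (sr_mem j.2)) (X_le_LJ (RootsJ.neg (sr_mem j.2)))

variable [Finite K]

/-- monomial conjugation and the blocks -/
theorem blk_conj (k1b : K1b K) (ns : NSys CoxeterMatrix.E₈ (TT chevE8 K) (nE (K := K))) {w : CoxeterMatrix.E₈.Group}
    {n : chevE8.group K} (hn : Rp CoxeterMatrix.E₈.toCoxeterSystem ns w n)
    (hw : ∀ i j : chevE8.Idx, InR 1 i → dg j = rep CoxeterMatrix.E₈.toCoxeterSystem hpE8.isCartan w⁻¹ (dg i) →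
      InR (-1) j) (y : chevE8.group K) : (blk 1 (n * y * n⁻¹)).charpoly = (blk (-1) y).charpoly := by
  have hA : ∀ i k : chevE8.Idx, InR 1 i → mt n i k ≠ 0 → InR (-1) k := by
    intro i k hi h0
    refine hw i k hi ?_
    rw [k1b ns w n hn i k h0, ← rep_mul_apply, inv_mul_cancel, map_one, Module.End.one_apply]
  have hB : ∀ k j : chevE8.Idx, InR 1 j → mt n⁻¹ k j ≠ 0 → InR (-1) k := by
    intro k j hj h0
    exact hw j k hj (k1b ns w⁻¹ n⁻¹ hn.inv k j h0)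
  let N : Matrix {i // InR 1 i} {i // InR (-1) i} K := (mt n).submatrix Subtype.val Subtype.val
  let N' : Matrix {i // InR (-1) i} {i // InR 1 i} K := (mt n⁻¹).submatrix Subtype.val Subtype.val
  have h1 : blk 1 (n * y * n⁻¹) = N * blk (-1) y * N' := by
    ext i j
    show (mt n * mt y * mt n⁻¹) i.1 j.1 = ∑ l : {l // InR (-1) l}, (∑ k : {k // InR (-1) k}, mt n i.1 k.1 * mt y k.1 l.1) * mt n⁻¹ l.1 j.1
    rw [Matrix.mul_apply, sum_inR (-1)]
    · refine Finset.sum_congr rfl fun l _ => ?_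
      rw [Matrix.mul_apply, sum_inR (-1)]
      intro k hk
      exact hA _ _ i.2 (left_ne_zero_of_mul hk)
    · intro l hl
      exact hB _ _ j.2 (right_ne_zero_of_mul hl)
  have h2 : N * N' = 1 := by
    ext i j
    show ∑ k : {k // InR (-1) k}, mt n i.1 k.1 * mt n⁻¹ k.1 j.1 = _
    rw [← sum_inR (-1) fun k => mt n i.1 k * mt n⁻¹ k j.1]
    · rw [← Matrix.mul_apply, ← mt_mul, mul_inv_cancel, mt_one, Matrix.one_apply, Matrix.one_apply]
      exact if_congr Subtype.ext_iff.symm rfl rfl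
    · intro k hk
      exact hA _ _ i.2 (left_ne_zero_of_mul hk)
  rw [h1]
  exact charpoly_rect card_R h2 _

/-- **The key lemma.** -/
theorem key (k1a : K1a K) (k1b : K1b K) (k4 : K4) {x : chevE8.group K} (hx : x ∈ SA K)
    (hirr : Irreducible (blk 1 x).charpoly) (hne : (blk (-1) x).charpoly ≠ (blk 1 x).charpoly) {g : chevE8.group K}
    (hg : Commute g x) (hP : g ∈ P8 K {i | i ≠ 7}) : g ∈ P8 K {i | i ≠ 4} := by
  obtain ⟨r, hr⟩ := CharP.exists K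
  have : Fact r.Prime := ⟨(CharP.char_is_prime_or_zero K r).resolve_right (CharP.char_ne_zero_of_finite K r)⟩
  have hfin := finite_W hpE8 CoxeterMatrix.E₈.toCoxeterSystem
  have R := rgd (K := K) hpE8 CoxeterMatrix.E₈.toCoxeterSystem r
  obtain ⟨w, hw, a, ha, n, hn, b, hb, rfl⟩ := (mem_PJ_iff_cell R).1 hP
  have hBJ : ∀ (J : Set (Fin 8)), RGD.B CoxeterMatrix.E₈.toCoxeterSystem hpE8.isCartan (TT chevE8 K) (XX chevE8 8 K) ≤ P8 K J :=
    fun J => B_le_PJ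
  have hxJ : x ∈ P8 K J4 := LJ_le_PJ (SA_le hx)
  have e1 : a⁻¹ * x * a = n * (b⁻¹⁻¹ * x * b⁻¹) * n⁻¹ := by
    have h0 := hg.eq
    rw [inv_inv]
    have h1 : a * n * b * x = x * (a * n * b) := h0
    calc a⁻¹ * x * a = a⁻¹ * (x * (a * n * b)) * b⁻¹ * n⁻¹ := by group
      _ = n * (b * x * b⁻¹) * n⁻¹ := by rw [← h1]; group
  have ha' : a ∈ P8 K J4 := hBJ _ ha
  have hb' : b⁻¹ ∈ P8 K J4 := inv_mem (hBJ _ hb)
  have c1 : (blk 1 (a⁻¹ * x * a)).charpoly = (blk 1 x).charpoly := charpoly_blk k1a 1 ha' hxJ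
  have c2 : (blk (-1) (b⁻¹⁻¹ * x * b⁻¹)).charpoly = (blk (-1) x).charpoly := charpoly_blk k1a (-1) hb' hxJ
  have hx2 : b⁻¹⁻¹ * x * b⁻¹ ∈ P8 K J4 := mul_mem (mul_mem (inv_mem hb') hxJ) hb'
  have hcon : ∀ k : Fin 8, k ∈ ({4, 5, 6} : Set (Fin 8)) → ∀ i j : chevE8.Idx, InR 1 i → InR 1 j →
      rep CoxeterMatrix.E₈.toCoxeterSystem hpE8.isCartan w⁻¹ (dg i) k =
      rep CoxeterMatrix.E₈.toCoxeterSystem hpE8.isCartan w⁻¹ (dg j) k := by
    intro k hk i j hi hj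
    have hkJ : k ∉ J4 := by
      rcases hk with rfl | rfl | rfl <;> simp [J4]
    have hirr' : Irreducible (blk 1 (a⁻¹ * x * a)).charpoly := by
      rw [c1]
      exact hirr
    refine const_of_irr hirr'
      (φ := fun i : {i // InR 1 i} => rep CoxeterMatrix.E₈.toCoxeterSystem hpE8.isCartan w⁻¹ (dg i.1) k) ?_ ⟨i, hi⟩ ⟨j, hj⟩
    intro i j hij
    have h0 : (mt n * mt (b⁻¹⁻¹ * x * b⁻¹) * mt n⁻¹) i.1 j.1 ≠ 0 := by
      rw [← mt_mul, ← mt_mul, ← e1]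
      exact hij
    rw [Matrix.mul_apply] at h0
    obtain ⟨l, -, hl⟩ := Finset.exists_ne_zero_of_sum_ne_zero h0
    have hl1 := left_ne_zero_of_mul hl
    have hl2 := right_ne_zero_of_mul hl
    rw [Matrix.mul_apply] at hl1
    obtain ⟨m, -, hm⟩ := Finset.exists_ne_zero_of_sum_ne_zero hl1
    have e2 := k1b R.nsys w n hn i.1 m (left_ne_zero_of_mul hm)
    have e3 := k1b R.nsys w⁻¹ n⁻¹ hn.inv l j.1 hl2
    have e4 := k1a J4 k hkJ _ hx2 _ _ (right_ne_zero_of_mul hm)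
    show rep CoxeterMatrix.E₈.toCoxeterSystem hpE8.isCartan w⁻¹ (dg j.1) k ≤
      rep CoxeterMatrix.E₈.toCoxeterSystem hpE8.isCartan w⁻¹ (dg i.1) k
    rw [← e3, e2, ← rep_mul_apply, inv_mul_cancel, map_one, Module.End.one_apply]
    exact e4
  rcases k4 w hw hcon with h4 | h4
  · exact mul_mem (mul_mem (hBJ _ ha) (LJ_le_PJ (rp_mem_LJ R h4 hn))) (hBJ _ hb)
  · exfalso
    apply hne
    have c3 := blk_conj k1b R.nsys hn h4 (b⁻¹⁻¹ * x * b⁻¹)
    rw [← e1] at c3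
    exact (c2.symm.trans c3.symm).trans c1

end Main

end Cfsg.Agent.H596.L8
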