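import Cfsg.Agent.H596.L8.Key
import Cfsg.Agent.H116.L8.Tr
import Cfsg.Agent.H116.L8.K1

/-!
# `E₈ (q)`, `q` of order `5` modulo `11`: the local data (helper596, S4879)

* `Loc8` : the group-level facts behind `8 ∈ B₀`, for every Cartan matrix;
* `loc8_of` : for `chevE8.group K`, from `K3` and `K4`.
-/

set_option autoImplicit false
set_option linter.unusedSectionVars false

namespace Cfsg.Agent.H596.L8

open Cfsg CoxeterSystem Cfsg.Agent.ChevalleyStructure.CoxeterGeom Cfsg.Agent.Tits.Roots Cfsg.Agent.Tits.Core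
  Cfsg.Agent.Tits.RootComb Cfsg.Agent.Nodes.Reps Cfsg.Agent.Nodes.BNOf
  Cfsg.Agent.Nodes.StabComb Cfsg.Agent.Nodes.Bruhat Cfsg.Agent.Nodes.LeviDec Cfsg.Agent.H35.Poin
  Cfsg.Agent.H35.PoinNum Cfsg.Agent.H35.ExcIdx
  Cfsg.Agent.ChevalleyStructure.CoxeterGeomTypes Cfsg.Lie
open Cfsg.Agent.Nodes.RGDChev Cfsg.Agent.ChevalleyStructure.NPerm

universe u

section Gen

variable {W : Type*} {Y : Type u} [Group W] [Group Y] {M : CoxeterMatrix (Fin 8)} (cs : CoxeterSystem M W)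
  {A : Fin 8 → Fin 8 → ℤ} (h : IsCartan M A) (T : Subgroup Y) (X : (Fin 8 → ℤ) → Subgroup Y)

/-- the subgroup generated by the root groups of the nodes `0, 1, 2, 3` -/
def SAg (X : (Fin 8 → ℤ) → Subgroup Y) : Subgroup Y :=
  ⨆ j : {j : Fin 8 // (j : ℕ) < 4}, X (sr j.1) ⊔ X (-sr j.1)

/-- **The local data.** -/
structure Loc8 (l : ℕ) : Prop where
  ex : ∃ x ∈ SAg X, (∃ k, orderOf x = l ^ k) ∧
    ∀ g ∈ PJ cs h T X {i | i ≠ 7}, Commute g x → g ∈ PJ cs h T X {i | i ≠ 4}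
  leP : SAg X ≤ PJ cs h T X {i | i ≠ 7}
  leQ : SAg X ≤ PJ cs h T X {i | i ≠ 4}
  tr : ∀ g ∈ PJ cs h T X {i | i ≠ 4}, ∃ y ∈ PJ cs h T X {i | i ≠ 4}, (∀ z ∈ SAg X, Commute y z) ∧
    y⁻¹ * g ∈ PJ cs h T X {i | i ≠ 7} ⊓ PJ cs h T X {i | i ≠ 4}

end Gen

/-- the local data of `E₈ (q)` -/
theorem loc8_of (K : Type u) [Field K] [Fintype K] (h5 : orderOf ((Fintype.card K : ℕ) : ZMod 11) = 5) (k3 : K3 K)
    (k4 : K4) : Loc8 CoxeterMatrix.E₈.toCoxeterSystem hpE8.isCartan (TT chevE8 K) (XX chevE8 8 K) 11 where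
  ex := by
    obtain ⟨x, hx, hk, hirr, hne⟩ := k3 h5
    exact ⟨x, hx, hk, fun g hg hc => key (H116.L8.k1a K) (H116.L8.k1b K) k4 hx hirr hne hc hg⟩
  leP := H116.L8.SA_le K fun j hj => by
    rintro rfl
    exact absurd hj (by decide)
  leQ := H116.L8.SA_le K fun j hj => by
    rintro rfl
    exact absurd hj (by decide)
  tr := fun g hg => by
    obtain ⟨y, hy, hc, hyg⟩ := H116.L8.tr_E8 K hg
    exact ⟨y, hy, fun z hz => hc z hz, hyg⟩

end Cfsg.Agent.H596.L8
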