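import Cfsg.Agent.H596.L8.Loc
import Cfsg.Agent.H116.L8.K4
import Cfsg.Agent.H390.L8.KThree

/-!
# `E₈ (q)`, `q` of order `5` modulo `11`: the local data, without hypotheses (helper596, S4879)
-/

set_option autoImplicit false

namespace Cfsg.Agent.H596.L8

open Cfsg CoxeterSystem Cfsg.Agent.H35.ExcIdx Cfsg.Lie Cfsg.Agent.Nodes.RGDChev
open Cfsg.Agent.ChevalleyStructure.CoxeterGeom Cfsg.Agent.Tits.Roots Cfsg.Agent.Tits.Core

universe u

/-- **The local data of `E₈ (q)`.** -/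
theorem loc8 (K : Type u) [Field K] [Fintype K] (h5 : orderOf ((Fintype.card K : ℕ) : ZMod 11) = 5) :
    Loc8 CoxeterMatrix.E₈.toCoxeterSystem hpE8.isCartan (TT chevE8 K) (XX chevE8 8 K) 11 :=
  loc8_of K h5 (Cfsg.Agent.H390.L8.k3 K) Cfsg.Agent.H116.L8.k4

end Cfsg.Agent.H596.L8
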